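import Cfsg.Agent.H527.RC.AsmM
import Cfsg.Agent.H527.RC.AsmPLin

/-!
# S4191: the assembly (helper527)
-/

set_option autoImplicit false

namespace Cfsg.Agent.H527.RC

open scoped Pointwise commutatorElement

universe u

/-- bound for groups with a normal `p`-complement -/
def MB (p c d : ℕ) : Prop := ∀ (M : Type u) [Group M] [Finite M] (K : Subgroup M) (e : ℕ), LP p K →
  (∀ g : M, PEl p g → (∀ x ∈ K, g * x = x * g) → g = 1) → Cp p e M → c * (Nat.card M).factorization p ≤ d * e

theorem mb_of {p c d : ℕ} (hp : p.Prime) (hL : Lev.{u} p c d) (hNs : NsOrb.{u} p) : MB.{u} p c (c + d) := by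
  intro M _ _ K e hK hf hcp
  have : Fact p.Prime := ⟨hp⟩
  have := m_bound hL hNs M K hK hf hcp
  rw [add_mul]
  exact this

theorem mb_two {c d : ℕ} (hL : Lev.{u} 2 c d)
    (hodd : ∀ (K : Type u) [Group K] [Finite K], Odd (Nat.card K) → Group.IsSolvable K) : MB.{u} 2 c d := by
  intro M _ _ K e hK hf hcp
  refine m_bound_solv hL M K hK (hodd K ?_) hf hcp
  rw [← Nat.not_even_iff_odd, even_iff_two_dvd]
  exact hK.cop

/-- The bound for `p`-solvable groups. -/
theorem psolv_bound {p a b c d e : ℕ} [hpf : Fact p.Prime] (hPL : PLin.{u} p a b) (hM : MB.{u} p c d)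
    (N : Type u) [Group N] [Finite N] (hsol : Cfsg.IsPSolvable p N) (hcore : Cfsg.pCore p N = ⊥)
    (hcp : Cp p e N) : b * c * (Nat.card N).factorization p ≤ (a + b) * d * e := by
  have hp := hpf.out
  have hHH := Cfsg.Agent.PLocal.HallHigmanPrime.centralizer_pPrimeCore_le_of_pSolvable p hsol hcore
  have hKc := Cfsg.Agent.Lib.Cores.pPrimeCore_coprime (G := N) p
  have hKn : (Cfsg.pPrimeCore p N).Normal := Cfsg.Agent.Lib.Cores.pPrimeCore_normal p
  have hQn : (Cfsg.pCore p (N ⧸ Cfsg.pPrimeCore p N)).Normal := Cfsg.Agent.Lib.Cores.pCore_normal p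
  have hQp : IsPGroup p (Cfsg.pCore p (N ⧸ Cfsg.pPrimeCore p N)) := Cfsg.Agent.Lib.Cores.pCore_isPGroup p
  have hcH : Cfsg.pPrimeCore p (N ⧸ Cfsg.pPrimeCore p N) = ⊥ :=
    Cfsg.Agent.Lib.Cores.pPrimeCore_quotient_pPrimeCore p
  have hsH : Cfsg.IsPSolvable p (N ⧸ Cfsg.pPrimeCore p N) :=
    Cfsg.Agent.Lib.PSolvable.IsPSolvable_of_surjective p hsol _ (QuotientGroup.mk'_surjective _)
  have hMn : (Cfsg.pPrimePCore p N).Normal := hQn.comap _
  have hKM : Cfsg.pPrimeCore p N ≤ Cfsg.pPrimePCore p N := by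
    intro x hx
    change (QuotientGroup.mk' _) x ∈ Cfsg.pCore p (N ⧸ Cfsg.pPrimeCore p N)
    have : (QuotientGroup.mk' (Cfsg.pPrimeCore p N)) x = 1 := (QuotientGroup.eq_one_iff x).2 hx
    rw [this]
    exact Subgroup.one_mem _
  have h1 := plin_apply hPL (N ⧸ Cfsg.pPrimeCore p N) hsH hcH
  -- the group `M`
  have hLP : LP p ((Cfsg.pPrimeCore p N).subgroupOf (Cfsg.pPrimePCore p N)) := by
    refine ⟨inferInstance, ?_, ?_⟩
    · intro h
      rw [Nat.card_congr (Subgroup.subgroupOfEquivOfLe hKM).toEquiv] at h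
      exact (Nat.Prime.coprime_iff_not_dvd hp).1 hKc.symm h
    · rintro ⟨x, hx⟩
      obtain ⟨k, hk⟩ := hQp ⟨(QuotientGroup.mk' (Cfsg.pPrimeCore p N)) x, hx⟩
      refine ⟨k, ?_⟩
      rw [Subgroup.mem_subgroupOf]
      change x ^ p ^ k ∈ Cfsg.pPrimeCore p N
      have h2 : (QuotientGroup.mk' (Cfsg.pPrimeCore p N)) (x ^ p ^ k) = 1 := by
        rw [map_pow]
        exact congrArg Subtype.val hk
      exact (QuotientGroup.eq_one_iff _).1 h2
  have h2 : c * (Nat.card (Cfsg.pPrimePCore p N)).factorization p ≤ d * e := by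
    refine hM _ _ e hLP ?_ (hcp.normal _)
    rintro ⟨g, hg⟩ ⟨n, hn⟩ hgK
    have hgn : g ^ p ^ n = 1 := congrArg Subtype.val hn
    have h3 : g ∈ Cfsg.pPrimeCore p N := by
      apply hHH
      rw [Subgroup.mem_centralizer_iff]
      intro k hk
      exact (congrArg Subtype.val (hgK ⟨k, hKM hk⟩ (by rw [Subgroup.mem_subgroupOf]; exact hk))).symm
    apply Subtype.ext
    have h4 : orderOf g ∣ p ^ n := orderOf_dvd_of_pow_eq_one hgn
    have h5 : orderOf g ∣ Nat.card (Cfsg.pPrimeCore p N) := by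
      have := orderOf_dvd_natCard (⟨g, h3⟩ : Cfsg.pPrimeCore p N)
      rwa [Subgroup.orderOf_mk] at this
    exact orderOf_eq_one_iff.1 (Nat.eq_one_of_dvd_coprimes (Nat.Coprime.pow_left n hKc.symm) h4 h5)
  -- orders
  have h3 := nu_index (Cfsg.pPrimePCore p N) p
  have h4 := nu_index (Cfsg.pCore p (N ⧸ Cfsg.pPrimeCore p N)) p
  have h5 := nu_mul (Cfsg.pPrimeCore p N) p
  have h6 : (Nat.card (Cfsg.pPrimeCore p N)).factorization p = 0 :=
    Nat.factorization_eq_zero_of_not_dvd ((Nat.Prime.coprime_iff_not_dvd hp).1 hKc.symm)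
  have h7 : (Cfsg.pPrimePCore p N).index = (Cfsg.pCore p (N ⧸ Cfsg.pPrimeCore p N)).index :=
    Subgroup.index_comap_of_surjective _ (QuotientGroup.mk'_surjective _)
  have h8 : (Nat.card ((N ⧸ Cfsg.pPrimeCore p N) ⧸ Cfsg.pCore p (N ⧸ Cfsg.pPrimeCore p N))).factorization p =
      (Cfsg.pPrimePCore p N).index.factorization p := by
    rw [h7]
    rfl
  rw [h7] at h3
  rw [h8, h7] at h1
  set m := (Nat.card (Cfsg.pPrimePCore p N)).factorization p with hm
  set i := (Cfsg.pCore p (N ⧸ Cfsg.pPrimeCore p N)).index.factorization p with hi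
  have h9 : (Nat.card (Cfsg.pCore p (N ⧸ Cfsg.pPrimeCore p N))).factorization p = m := by omega
  rw [h9] at h1
  rw [h3]
  calc b * c * (m + i) = c * (b * m) + c * (b * i) := by ring
    _ ≤ c * (b * m) + c * (a * m) := by gcongr
    _ = (a + b) * (c * m) := by ring
    _ ≤ (a + b) * (d * e) := by gcongr
    _ = (a + b) * d * e := by ring

/-- The bound for groups without normal `p`-subgroups. -/
theorem core_bound {p a b c d e : ℕ} [hpf : Fact p.Prime] (hT : TopStmt.{u}) (hPL : PLin.{u} p a b)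
    (hM : MB.{u} p c d) (G : Type u) [Group G] [Finite G] (hcore : Cfsg.pCore p G = ⊥) (hcp : Cp p e G) :
    b * c * (Nat.card G).factorization p ≤ ((a + b) * d + 2 * (b * c)) * e := by
  classical
  have hp := hpf.out
  obtain ⟨N, ⟨hN1, hN2⟩, hmax⟩ := (Set.toFinite {N : Subgroup G | N.Normal ∧ Cfsg.IsPSolvable p N}).exists_maximal
    ⟨⊥, inferInstance, Cfsg.Agent.Lib.PSolvable.IsPSolvable_of_solvable p⟩
  have h1 : (Nat.card (G ⧸ N)).factorization p ≤ 2 * e := by
    apply hT p (G ⧸ N) e (hcp.quotient hp N)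
    intro A hA hAs
    have hf : Function.Surjective (QuotientGroup.mk' N) := QuotientGroup.mk'_surjective N
    have hn : (A.comap (QuotientGroup.mk' N)).Normal := hA.comap _
    have hle : N ≤ A.comap (QuotientGroup.mk' N) := by
      intro x hx
      rw [Subgroup.mem_comap]
      have : (QuotientGroup.mk' N) x = 1 := (QuotientGroup.eq_one_iff x).2 hx
      rw [this]
      exact A.one_mem
    have h3 : Cfsg.IsPSolvable p (A.comap (QuotientGroup.mk' N)) := by
      have hNs : Cfsg.IsPSolvable p (N.subgroupOf (A.comap (QuotientGroup.mk' N))) :=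
        Cfsg.Agent.Lib.PSolvable.IsPSolvable_of_injective p hN2
          (Subgroup.subgroupOfEquivOfLe hle).toMonoidHom (Subgroup.subgroupOfEquivOfLe hle).injective
      refine Cfsg.Agent.Lib.PSolvable.IsPSolvable_of_extension p (N.subgroupOf (A.comap (QuotientGroup.mk' N))) hNs ?_
      let g : (A.comap (QuotientGroup.mk' N)) →* A := (QuotientGroup.mk' N).subgroupComap A
      have hk : N.subgroupOf (A.comap (QuotientGroup.mk' N)) ≤ g.ker := by
        intro x hx
        rw [MonoidHom.mem_ker]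
        exact Subtype.ext ((QuotientGroup.eq_one_iff (x : G)).2 hx)
      refine Cfsg.Agent.Lib.PSolvable.IsPSolvable_of_injective p hAs (QuotientGroup.lift _ g hk) ?_
      rw [injective_iff_map_eq_one]
      intro x
      induction x using QuotientGroup.induction_on with
      | H x =>
        intro hx
        rw [QuotientGroup.lift_mk] at hx
        rw [QuotientGroup.eq_one_iff]
        exact (QuotientGroup.eq_one_iff (x : G)).1 (congrArg Subtype.val hx)
    have h4 : A.comap (QuotientGroup.mk' N) = N := le_antisymm (hmax ⟨hn, h3⟩ hle) hle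
    rw [eq_bot_iff]
    intro x hx
    obtain ⟨y, rfl⟩ := hf x
    have : y ∈ N := by
      rw [← h4]
      exact hx
    exact Subgroup.mem_bot.2 ((QuotientGroup.eq_one_iff y).2 this)
  have h2 : b * c * (Nat.card N).factorization p ≤ (a + b) * d * e := by
    refine psolv_bound hPL hM N hN2 ?_ (hcp.normal N)
    have h3 := Cfsg.Agent.Lib.Cores.map_subtype_pCore p hN1
    rw [hcore, inf_bot_eq] at h3
    exact (Subgroup.map_eq_bot_iff_of_injective _ N.subtype_injective).1 h3
  rw [nu_mul N p]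
  calc b * c * ((Nat.card N).factorization p + (Nat.card (G ⧸ N)).factorization p)
      = b * c * (Nat.card N).factorization p + b * c * (Nat.card (G ⧸ N)).factorization p := by ring
    _ ≤ (a + b) * d * e + b * c * (2 * e) := by gcongr
    _ = ((a + b) * d + 2 * (b * c)) * e := by ring

/-- The general bound. -/
theorem main_bound {p a b c d e : ℕ} [hpf : Fact p.Prime] (hT : TopStmt.{u}) (hPL : PLin.{u} p a b)
    (hM : MB.{u} p c d) (G : Type u) [Group G] [Finite G] (hcp : Cp p e G) :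
    b * c * (Cfsg.pCore p G).index.factorization p ≤ ((a + b) * d + 2 * (b * c)) * e := by
  have hn : (Cfsg.pCore p G).Normal := Cfsg.Agent.Lib.Cores.pCore_normal p
  have := core_bound hT hPL hM (G ⧸ Cfsg.pCore p G) (Cfsg.Agent.Lib.Cores.pCore_quotient_pCore p)
    (hcp.quotient hpf.out _)
  exact this

/-- **S4191** from its parts. -/
theorem final (hT : TopStmt.{u}) (hP2 : PLin.{u} 2 1 1) (hP3 : PLin.{u} 3 3 4) (hP5 : PLin.{u} 5 5 16)
    (hP : ∀ p : ℕ, p.Prime → 7 ≤ p → PLin.{u} p 7 36) (hN : ∀ p : ℕ, p.Prime → p ≠ 2 → NsOrb.{u} p)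
    (hodd : ∀ (K : Type u) [Group K] [Finite K], Odd (Nat.card K) → Group.IsSolvable K)
    (hL2 : Lev.{u} 2 2 15) (hL3 : Lev.{u} 3 2 17) (hL5 : Lev.{u} 5 3 7)
    (hL : ∀ p : ℕ, p.Prime → 7 ≤ p → Lev.{u} p 30 77)
    {G : Type u} [Group G] [Finite G] (p : ℕ) [hpf : Fact p.Prime] (e : ℕ)
    (he : ∀ x : G, ¬ p ∣ orderOf x → ((Subgroup.centralizer ({x} : Set G)).index).factorization p ≤ e) :
    (5 ≤ p → 2 * ((Cfsg.pCore p G).index).factorization p ≤ 13 * e) ∧
      (p = 3 → ((Cfsg.pCore p G).index).factorization p ≤ 19 * e) ∧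
      (p = 2 → ((Cfsg.pCore p G).index).factorization p ≤ 17 * e) := by
  have hcp : Cp p e G := he
  refine ⟨fun h5 => ?_, fun h3 => ?_, fun h2 => ?_⟩
  · by_cases h : p = 5
    · subst h
      have := main_bound hT hP5 (mb_of Nat.prime_five hL5 (hN 5 Nat.prime_five (by norm_num))) G hcp
      omega
    · have h7 : 7 ≤ p := by
        by_contra hlt
        have h6 : p = 6 := by omega
        rw [h6] at hpf
        exact absurd hpf.out (by norm_num)
      have := main_bound hT (hP p hpf.out h7) (mb_of hpf.out (hL p hpf.out h7) (hN p hpf.out (by omega))) G hcp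
      omega
  · subst h3
    have := main_bound hT hP3 (mb_of Nat.prime_three hL3 (hN 3 Nat.prime_three (by norm_num))) G hcp
    omega
  · subst h2
    have := main_bound hT hP2 (mb_two hL2 hodd) G hcp
    omega

end Cfsg.Agent.H527.RC
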